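import Cfsg.Agent.H571.RV.Pred
import Cfsg.Prelude.Def_LieTypeChar
import Cfsg.Prelude.Def_Classification2

/-!
# S4247: products of two `π`-decomposable groups satisfy `D_π` (helper817): the rows for simple groups

`Cfg π P K B` : `S` a group, `P ≤ S`, `K, B ≤ Aut S`, `P` a non-nilpotent Hall `π`-subgroup of `S` (`2 ∉ π`), `K` and `B`
`π'`-groups, `K` centralises `P`, `Γ := K Inn S = B Inn S = (P × K) B`.

`Cls π X` : `X` has a nilpotent Hall `π`-subgroup, or `X` is in the list `LX π X`.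

`IH π P K` : every simple non-abelian factor group of a proper subgroup of `S` normalised by `P` and `K` is in the class.

`Row π S` : `Cfg` and `IH` imply `LX π S`.
-/

set_option autoImplicit false

namespace Cfsg.Agent.H817.DPi

open Subgroup Cfsg Cfsg.Agent.H988.CPi Cfsg.Agent.H571.RV

universe u

/-- `X` has a nilpotent Hall `π`-subgroup -/
def NilHall (π : Set ℕ) (X : Type u) [Group X] : Prop := ∃ H : Subgroup X, IsPiHall π H ∧ Group.IsNilpotent H

/-- `PSL_2(q)`, `PSU_3(q)`, `²G₂(q)` in characteristic `p` -/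
def RankOne (p : ℕ) (X : Type u) [Group X] : Prop :=
  (∃ (F : Type) (_ : Field F) (_ : Fintype F) (_ : CharP F p),
    4 ≤ Fintype.card F ∧ Nonempty (X ≃* Matrix.ProjectiveSpecialLinearGroup (Fin 2) F)) ∨
  (∃ (F : Type) (_ : Field F) (_ : Fintype F) (_ : CharP F p) (q : ℕ),
    Fintype.card F = q ^ 2 ∧ q ≠ 2 ∧ Nonempty (X ≃* PSU 3 F q)) ∨
  (p = 3 ∧ Lie.IsoRee X)

/-- the primes of `π` dividing `|X|` are `r`, `s` -/
def Two (π : Set ℕ) (r s : ℕ) (X : Type u) [Group X] : Prop :=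
  ∀ l ∈ π, l.Prime → l ∣ Nat.card X → l = r ∨ l = s

/-- **The list.** -/
def LX (π : Set ℕ) (X : Type u) [Group X] : Prop :=
  (∃ p ∈ π, p.Prime ∧ RankOne p X) ∨
  Nonempty (X ≃* Matrix.ProjectiveSpecialLinearGroup (Fin 3) (ZMod 2)) ∨
  (Nonempty (X ≃* Matrix.ProjectiveSpecialLinearGroup (Fin 5) (ZMod 2)) ∧ Two π 5 31 X) ∨
  (Spor.IsoM11 X ∧ Two π 5 11 X) ∨
  (Spor.IsoM23 X ∧ Two π 11 23 X)

/-- **The class.** -/
def Cls (π : Set ℕ) (X : Type u) [Group X] : Prop := NilHall π X ∨ LX π X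

/-- **The configuration.** -/
structure Cfg (π : Set ℕ) {S : Type u} [Group S] (P : Subgroup S) (K B : Subgroup (MulAut S)) : Prop where
  two : 2 ∉ π
  hall : IsPiHall π P
  nnil : ¬ Group.IsNilpotent P
  piK : PiN' π (Nat.card K)
  piB : PiN' π (Nat.card B)
  fix : ∀ k ∈ K, ∀ x ∈ P, k x = x
  sup : K ⊔ inn S = B ⊔ inn S
  fac : ∀ g ∈ B ⊔ inn S, ∃ x ∈ P, ∃ k ∈ K, ∃ b ∈ B, g = MulAut.conj x * k * b

/-- **The induction hypothesis.** -/
def IH (π : Set ℕ) {S : Type u} [Group S] (P : Subgroup S) (K : Subgroup (MulAut S)) : Prop :=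
  ∀ H : Subgroup S, H ≠ ⊤ → P ≤ normalizer (H : Set S) → K ≤ stab H →
    ∀ (X : Type u) [Group X] [Finite X] [IsSimpleGroup X], ¬ IsMulCommutative X →
      ∀ f : H →* X, Function.Surjective f → Cls π X

/-- **The row.** -/
def Row (π : Set ℕ) (S : Type u) [Group S] : Prop :=
  ∀ (P : Subgroup S) (K B : Subgroup (MulAut S)), Cfg π P K B → IH π P K → LX π S

end Cfsg.Agent.H817.DPi
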